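import Groth.Agent.Gaga.H145.Surj
import Groth.Agent.Gaga.H9.Germ

/-!
# The holomorphic local rings are Noetherian
-/

set_option autoImplicit false

open CategoryTheory AlgebraicGeometry Topology

namespace Groth.Agent.Gaga.H986.NoethStk

/-- The two versions of the ring of germs of holomorphic functions agree. -/
theorem holGerm_eq {n : ℕ} (a : Fin n → ℂ) : Groth.Agent.Gaga.H145.Surj.HolGerm a =
    Groth.Agent.Gaga.H9.Germ.hol a := by
  ext φ
  constructor
  · rintro ⟨G, hG, h⟩
    exact ⟨G, hG, h⟩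
  · rintro ⟨G, hG, h⟩
    exact ⟨G, hG, h⟩

theorem isNoetherianRing_holGerm {n : ℕ} (a : Fin n → ℂ) :
    IsNoetherianRing (Groth.Agent.Gaga.H145.Surj.HolGerm a) := by
  rw [holGerm_eq]
  exact Groth.Agent.Gaga.H9.Germ.isNoetherianRing_hol a

/-- The ring of germs of holomorphic functions at a point of `X(ℂ)` is Noetherian. -/
theorem isNoetherianRing_stk {X : Scheme.{0}} [X.Over An.SC] [LocallyOfFiniteType (X ↘ An.SC)]
    (x : An.Pts X) : IsNoetherianRing ((An.anSpace X).presheaf.stalk x) :=
  Groth.Agent.Gaga.H145.Surj.isNoetherianRing_stk_of x fun _ a => isNoetherianRing_holGerm a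

end Groth.Agent.Gaga.H986.NoethStk
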