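import Groth.Agent.Gaga.H986.Stalk
import Mathlib.RingTheory.Nakayama
import Mathlib.RingTheory.LocalRing.MaximalIdeal.Basic

/-!
# Finitely generated sheaves of modules: spreading out from a stalk

`M : Mod R` on a ringed space.
* `Gen M g`: the sections `g i : Sec M V` generate all the stalks of `M` at the points of `V`
  (`gen_iff`: every section is locally a combination of the `g i`);
* `FTAt M x`: `M` is generated by finitely many sections near `x`;
* `FTAt.exists_gen`: sections generating the stalk at `x` generate near `x`, also modulo the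
  maximal ideal (`FTAt.exists_gen_of_sup`);
* zero stalk implies zero nearby, surjective on the stalk implies surjective nearby, injective on
  the stalk and kernel of finite type implies injective nearby.
-/

set_option autoImplicit false

open CategoryTheory TopologicalSpace Opposite

noncomputable section

namespace Groth.Agent.Gaga.H986.Nak

open Groth.Agent.Gaga.H975.ModSec Groth.Agent.Gaga.H986.Stalk

variable {T : TopCat.{0}} {R : TopCat.Sheaf CommRingCat.{0} T}

/-- A finite intersection of open neighbourhoods. -/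
theorem exists_fin_inter {ι : Type*} [Finite ι] {x : T} (V : ι → Opens T) (hV : ∀ i, x ∈ V i)
    (U : Opens T) (hU : x ∈ U) :
    ∃ (W : Opens T) (_ : x ∈ W) (_ : W ≤ U), ∀ i, W ≤ V i :=
  ⟨⟨⋂ i, (V i : Set T), isOpen_iInter_of_finite fun i => (V i).isOpen⟩ ⊓ U,
    ⟨Set.mem_iInter.2 hV, hU⟩, inf_le_right, fun i y hy => Set.mem_iInter.1 hy.1 i⟩

/-- Finitely many equalities of germs hold on a common neighbourhood. -/
theorem exists_res_eq_fin (M : Mod R) {ι : Type*} [Finite ι] {x : T} {V : Opens T} (hx : x ∈ V)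
    {s t : ι → Sec M V} (h : ∀ i, gm M x V hx (s i) = gm M x V hx (t i)) :
    ∃ (W : Opens T) (_ : x ∈ W) (hW : W ≤ V), ∀ i, res M hW (s i) = res M hW (t i) := by
  choose U hU hUV e using fun i => exists_res_eq M hx (h i)
  obtain ⟨W, hxW, hWV, hWU⟩ := exists_fin_inter U hU V hx
  refine ⟨W, hxW, hWV, fun i => ?_⟩
  rw [← res_res M (hUV i) (hWU i), e i, res_res]

variable (M : Mod R)

/-- The sections `g i` over `V` generate the stalks of `M` at the points of `V`. -/
def Gen {V : Opens T} {ι : Type*} (g : ι → Sec M V) : Prop :=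
  ∀ (x : T) (hx : x ∈ V), Submodule.span (StO R x) (Set.range fun i => gm M x V hx (g i)) = ⊤

variable {M}

theorem Gen.res {V W : Opens T} (h : W ≤ V) {ι : Type*} {g : ι → Sec M V} (hg : Gen M g) :
    Gen M (fun i => H975.ModSec.res M h (g i)) := by
  intro x hx
  have := hg x (h hx)
  simpa only [gm_res] using this

theorem Gen.of_le_span {V : Opens T} {ι κ : Type*} {g : ι → Sec M V} (hg : Gen M g)
    {s : κ → Sec M V} (h : ∀ (x : T) (hx : x ∈ V) (i : ι), gm M x V hx (g i) ∈
      Submodule.span (StO R x) (Set.range fun j => gm M x V hx (s j))) : Gen M s := by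
  intro x hx
  rw [eq_top_iff, ← hg x hx, Submodule.span_le]
  rintro _ ⟨i, rfl⟩
  exact h x hx i

/-- Elements of the span of germs are germs of combinations. -/
theorem exists_combination {V : Opens T} {x : T} (hx : x ∈ V) {k : ℕ} (s : Fin k → Sec M V)
    (m : Sec M V) (hm : gm M x V hx m ∈
      Submodule.span (StO R x) (Set.range fun j => gm M x V hx (s j))) :
    ∃ (W : Opens T) (_ : x ∈ W) (hW : W ≤ V) (c : Fin k → O R W),
      H975.ModSec.res M hW m = ∑ j, c j • H975.ModSec.res M hW (s j) := by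
  rw [Submodule.mem_span_range_iff_exists_fun] at hm
  obtain ⟨a, ha⟩ := hm
  obtain ⟨U, hxU, c, hc⟩ := exists_gmO_fin x a
  have h1 : gm M x (U ⊓ V) ⟨hxU, hx⟩ (H975.ModSec.res M inf_le_right m) =
      gm M x (U ⊓ V) ⟨hxU, hx⟩ (∑ j, (resO (inf_le_left : U ⊓ V ≤ U) (c j) : O R (U ⊓ V)) •
        (H975.ModSec.res M (inf_le_right : U ⊓ V ≤ V) (s j) : Sec M (U ⊓ V))) := by
    rw [map_sum, gm_res, ← ha]
    refine Finset.sum_congr rfl fun j _ => ?_
    rw [gm_smul, gm_res, gmO_resO, hc]
  obtain ⟨W, hxW, hW, e⟩ := exists_res_eq M _ h1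
  refine ⟨W, hxW, hW.trans inf_le_right, fun j => resO (hW.trans inf_le_left) (c j), ?_⟩
  rw [res_res, map_sum] at e
  rw [e]
  refine Finset.sum_congr rfl fun j _ => ?_
  rw [res_smul, res_res, resO_resO]

/-- Elementwise form of generation. -/
theorem gen_iff {V : Opens T} {k : ℕ} {g : Fin k → Sec M V} :
    Gen M g ↔ ∀ (x : T) (U : Opens T) (hU : U ≤ V) (_ : x ∈ U) (m : Sec M U),
      ∃ (W : Opens T) (_ : x ∈ W) (hW : W ≤ U) (c : Fin k → O R W),
        H975.ModSec.res M hW m = ∑ j, c j • H975.ModSec.res M (hW.trans hU) (g j) := by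
  constructor
  · intro h x U hU hx m
    obtain ⟨W, hxW, hW, c, e⟩ := exists_combination (M := M) hx (fun j => H975.ModSec.res M hU (g j)) m
      (by rw [h.res hU x hx]; trivial)
    refine ⟨W, hxW, hW, c, ?_⟩
    rw [e]
    exact Finset.sum_congr rfl fun j _ => by rw [res_res]
  · intro h x hx
    rw [eq_top_iff]
    rintro t -
    obtain ⟨U, hxU, m, rfl⟩ := exists_gm M x t
    obtain ⟨W, hxW, hW, c, e⟩ := h x (U ⊓ V) inf_le_right ⟨hxU, hx⟩ (H975.ModSec.res M inf_le_left m)
    rw [res_res] at e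
    rw [← gm_res M x (hW.trans inf_le_left) hxW, e, map_sum]
    refine Submodule.sum_mem _ fun j _ => ?_
    rw [gm_smul, gm_res]
    exact Submodule.smul_mem _ _ (Submodule.subset_span ⟨j, rfl⟩)

variable (M) in
/-- `M` is generated by finitely many sections near `x`. -/
def FTAt (x : T) : Prop :=
  ∃ (V : Opens T) (_ : x ∈ V) (n : ℕ) (g : Fin n → Sec M V), Gen M g

theorem FTAt.finite {x : T} (h : FTAt M x) : Module.Finite (StO R x) (St M x) := by
  obtain ⟨V, hx, n, g, hg⟩ := h
  refine ⟨⟨(Set.finite_range fun i => gm M x V hx (g i)).toFinset, ?_⟩⟩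
  rw [Set.Finite.coe_toFinset]
  exact hg x hx

/-- The property holds at the nearby points. -/
theorem FTAt.exists_nhds {x : T} (h : FTAt M x) :
    ∃ (V : Opens T) (_ : x ∈ V), ∀ y ∈ V, FTAt M y := by
  obtain ⟨V, hx, n, g, hg⟩ := h
  exact ⟨V, hx, fun y hy => ⟨V, hy, n, g, hg⟩⟩

/-- Sections generating the stalk at `x` generate near `x`. -/
theorem FTAt.exists_gen {x : T} (h : FTAt M x) {V : Opens T} (hx : x ∈ V) {ι : Type*}
    (s : ι → Sec M V)
    (hs : Submodule.span (StO R x) (Set.range fun j => gm M x V hx (s j)) = ⊤) :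
    ∃ (W : Opens T) (_ : x ∈ W) (hW : W ≤ V), Gen M (fun j => H975.ModSec.res M hW (s j)) := by
  obtain ⟨U, hxU, n, g, hg⟩ := h
  -- each `g i` is a combination of finitely many `s j`
  have key : ∀ i : Fin n, ∃ (W : Opens T) (_ : x ∈ W) (hW : W ≤ U ⊓ V), ∀ (y : T) (hy : y ∈ W),
      gm M y U (hW.trans inf_le_left hy) (g i) ∈ Submodule.span (StO R y)
        (Set.range fun j => gm M y V (hW.trans inf_le_right hy) (s j)) := by
    intro i
    have hi : gm M x U hxU (g i) ∈
        Submodule.span (StO R x) (Set.range fun j => gm M x V hx (s j)) := by rw [hs]; trivial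
    obtain ⟨c, hc⟩ := (Finsupp.mem_span_range_iff_exists_finsupp).1 hi
    -- lift the coefficients
    obtain ⟨k, e⟩ : ∃ k : ℕ, Nonempty (Fin k ≃ c.support) :=
      ⟨_, ⟨c.support.equivFin.symm⟩⟩
    obtain ⟨e⟩ := e
    obtain ⟨W, hxW, hW, d, hd⟩ := exists_combination (M := M) (x := x) (V := U ⊓ V) ⟨hxU, hx⟩
      (fun l => H975.ModSec.res M inf_le_right (s (e l).1)) (H975.ModSec.res M inf_le_left (g i)) (by
        rw [gm_res, ← hc, Finsupp.sum]
        refine Submodule.sum_mem _ fun j hj => Submodule.smul_mem _ _ ?_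
        refine Submodule.subset_span ⟨e.symm ⟨j, hj⟩, ?_⟩
        simp only [Equiv.apply_symm_apply, gm_res])
    refine ⟨W, hxW, hW, fun y hy => ?_⟩
    rw [← gm_res M y (hW.trans inf_le_left) hy]
    rw [res_res] at hd
    rw [hd, map_sum]
    refine Submodule.sum_mem _ fun l _ => ?_
    rw [gm_smul, gm_res, gm_res]
    exact Submodule.smul_mem _ _ (Submodule.subset_span ⟨(e l).1, rfl⟩)
  choose W hxW hWUV hW using key
  obtain ⟨W', hxW', hW'UV, hW'⟩ := exists_fin_inter W hxW (U ⊓ V) ⟨hxU, hx⟩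
  refine ⟨W', hxW', hW'UV.trans inf_le_right, ?_⟩
  refine (hg.res (hW'UV.trans inf_le_left)).of_le_span fun y hy i => ?_
  have := hW i y (hW' i hy)
  simpa only [gm_res] using this

/-- Nakayama: sections generating the stalk at `x` modulo the maximal ideal generate near `x`. -/
theorem FTAt.exists_gen_of_sup {x : T} [IsLocalRing (StO R x)] (h : FTAt M x) {V : Opens T}
    (hx : x ∈ V) {ι : Type*} (s : ι → Sec M V)
    (hs : Submodule.span (StO R x) (Set.range fun j => gm M x V hx (s j)) ⊔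
      IsLocalRing.maximalIdeal (StO R x) • (⊤ : Submodule (StO R x) (St M x)) = ⊤) :
    ∃ (W : Opens T) (_ : x ∈ W) (hW : W ≤ V), Gen M (fun j => H975.ModSec.res M hW (s j)) := by
  have := h.finite
  refine h.exists_gen hx s ?_
  rw [eq_top_iff]
  refine Submodule.le_of_le_smul_of_le_jacobson_bot (I := IsLocalRing.maximalIdeal (StO R x))
    (Module.finite_def.1 this) (IsLocalRing.maximalIdeal_le_jacobson _) ?_
  rw [hs]

/-- Zero stalk implies zero nearby. -/
theorem FTAt.exists_eq_zero {x : T} (h : FTAt M x) (h0 : ∀ t : St M x, t = 0) :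
    ∃ (V : Opens T) (_ : x ∈ V), (∀ y ∈ V, ∀ t : St M y, t = 0) ∧
      ∀ W ≤ V, ∀ m : Sec M W, m = 0 := by
  obtain ⟨W, hxW, hWt, hW⟩ := h.exists_gen (V := ⊤) (x := x) trivial (ι := Empty)
    (fun e => e.elim) (by rw [eq_top_iff]; intro t _; rw [h0 t]; exact Submodule.zero_mem _)
  have h1 : ∀ y ∈ W, ∀ t : St M y, t = 0 := by
    intro y hy t
    have h2 := hW y hy
    rw [Set.range_eq_empty, Submodule.span_empty] at h2
    have : t ∈ (⊤ : Submodule (StO R y) (St M y)) := trivial
    rwa [← h2, Submodule.mem_bot] at this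
  refine ⟨W, hxW, h1, fun U hU m => eq_of_gm M fun y hy => ?_⟩
  rw [h1 y (hU hy) (gm M y U hy m), h1 y (hU hy) (gm M y U hy 0)]

section Hom

variable {N : Mod R} (φ : M ⟶ N)

/-- Surjective on the stalk at `x` implies surjective nearby. -/
theorem FTAt.exists_surjective {x : T} (h : FTAt N x) (hs : Function.Surjective (stMap φ x)) :
    ∃ (V : Opens T) (_ : x ∈ V), ∀ y ∈ V, Function.Surjective (stMap φ y) := by
  obtain ⟨U, hxU, n, g, hg⟩ := h
  choose t ht using fun i => hs (gm N x U hxU (g i))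
  obtain ⟨V, hxV, m, hm⟩ := exists_gm_fin M x t
  obtain ⟨W, hxW, hW, e⟩ := exists_res_eq_fin N (x := x) (V := U ⊓ V) ⟨hxU, hxV⟩
    (s := fun i => H975.ModSec.res N inf_le_left (g i))
    (t := fun i => H975.ModSec.res N inf_le_right (app φ V (m i))) (fun i => by
      rw [gm_res, gm_res, ← stMap_gm, hm, ht])
  refine ⟨W, hxW, fun y hy => ?_⟩
  rw [← LinearMap.range_eq_top, eq_top_iff, ← hg y (hW.trans inf_le_left hy), Submodule.span_le]
  rintro _ ⟨i, rfl⟩
  refine ⟨gm M y V (hW.trans inf_le_right hy) (m i), ?_⟩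
  have := congrArg (gm N y W hy) (e i)
  rw [gm_res, gm_res, gm_res, gm_res] at this
  rw [stMap_gm]
  exact this.symm

/-- `k j` are sections of `M` over `V` generating the kernel of `φ` on the stalks. -/
def KerGen {V : Opens T} {ι : Type*} (k : ι → Sec M V) : Prop :=
  ∀ (x : T) (hx : x ∈ V),
    Submodule.span (StO R x) (Set.range fun i => gm M x V hx (k i)) = LinearMap.ker (stMap φ x)

/-- The kernel of `φ` is of finite type near `x`. -/
def KerFTAt (x : T) : Prop :=
  ∃ (V : Opens T) (_ : x ∈ V) (n : ℕ) (k : Fin n → Sec M V), KerGen φ k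

/-- Injective on the stalk at `x` and kernel of finite type imply injective nearby. -/
theorem KerFTAt.exists_injective {x : T} (h : KerFTAt φ x) (hi : Function.Injective (stMap φ x)) :
    ∃ (V : Opens T) (_ : x ∈ V), ∀ y ∈ V, Function.Injective (stMap φ y) := by
  obtain ⟨V, hxV, n, k, hk⟩ := h
  have h0 : ∀ i, gm M x V hxV (k i) = gm M x V hxV 0 := by
    intro i
    have h1 : gm M x V hxV (k i) ∈ LinearMap.ker (stMap φ x) := by
      rw [← hk x hxV]
      exact Submodule.subset_span ⟨i, rfl⟩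
    rw [LinearMap.ker_eq_bot.2 hi, Submodule.mem_bot] at h1
    rw [h1, map_zero]
  obtain ⟨W, hxW, hW, e⟩ := exists_res_eq_fin M hxV (s := k) (t := fun _ => 0) h0
  refine ⟨W, hxW, fun y hy => ?_⟩
  rw [← LinearMap.ker_eq_bot, eq_bot_iff, ← hk y (hW hy), Submodule.span_le]
  rintro _ ⟨i, rfl⟩
  have := congrArg (gm M y W hy) (e i)
  rw [gm_res, gm_res, map_zero] at this
  exact this

/-- Bijective on the stalk at `x`, target of finite type, kernel of finite type: bijective
nearby. -/
theorem exists_bijective {x : T} (h : FTAt N x) (hk : KerFTAt φ x)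
    (hb : Function.Bijective (stMap φ x)) :
    ∃ (V : Opens T) (_ : x ∈ V), ∀ y ∈ V, Function.Bijective (stMap φ y) := by
  obtain ⟨V, hxV, hV⟩ := h.exists_surjective φ hb.2
  obtain ⟨W, hxW, hW⟩ := hk.exists_injective φ hb.1
  exact ⟨V ⊓ W, ⟨hxV, hxW⟩, fun y hy => ⟨hW y hy.2, hV y hy.1⟩⟩

end Hom

end Groth.Agent.Gaga.H986.Nak
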