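import Groth.Agent.Gaga.H975.ModSec
import Mathlib.Algebra.Category.ModuleCat.Stalk
import Mathlib.Topology.Sheaves.Stalks
import Mathlib.Topology.Sheaves.Abelian

/-!
# Stalks of sheaves of modules over a sheaf of commutative rings on a space

`T : TopCat.{0}`, `R : T.Sheaf CommRingCat`, `M : Mod R` (see `Groth.Agent.Gaga.H975.ModSec`).
* `StO R x`: the stalk of `R`, `St M x`: the stalk of `M`, a module over `StO R x`;
* `gmO`, `gm`: germs;
* `stMap φ x : St M x →ₗ[StO R x] St N x` for `φ : M ⟶ N`;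
* `desc`: linear maps out of a stalk.
-/

set_option autoImplicit false

open CategoryTheory TopologicalSpace Opposite

noncomputable section

namespace Groth.Agent.Gaga.H986.Stalk

open Groth.Agent.Gaga.H975.ModSec

variable {T : TopCat.{0}} {R : TopCat.Sheaf CommRingCat.{0} T}

variable (R) in
/-- The stalk of the sheaf of rings. -/
def StO (x : T) : Type := TopCat.Presheaf.stalk (C := CommRingCat.{0}) R.obj x

instance (x : T) : CommRing (StO R x) :=
  inferInstanceAs (CommRing (TopCat.Presheaf.stalk (C := CommRingCat.{0}) R.obj x))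

/-- The stalk of a module. -/
def St (M : Mod R) (x : T) : Type := TopCat.Presheaf.stalk (C := AddCommGrpCat.{0}) M.val.presheaf x

instance (M : Mod R) (x : T) : AddCommGroup (St M x) :=
  inferInstanceAs (AddCommGroup (TopCat.Presheaf.stalk (C := AddCommGrpCat.{0}) M.val.presheaf x))

instance (M : Mod R) (x : T) : Module (StO R x) (St M x) :=
  inferInstanceAs (Module (TopCat.Presheaf.stalk (C := CommRingCat.{0}) R.obj x)
    ↑(TopCat.Presheaf.stalk (PresheafOfModules.presheaf
      (show PresheafOfModules (R.obj ⋙ forget₂ CommRingCat RingCat) from M.val)) x))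

variable (R) in
/-- Germs of sections of the sheaf of rings. -/
def gmO (x : T) (V : Opens T) (hx : x ∈ V) : O R V →+* StO R x :=
  (TopCat.Presheaf.germ (C := CommRingCat.{0}) R.obj V x hx).hom

/-- Germs of sections of a module. -/
def gm (M : Mod R) (x : T) (V : Opens T) (hx : x ∈ V) : Sec M V →+ St M x :=
  (TopCat.Presheaf.germ (C := AddCommGrpCat.{0}) M.val.presheaf V x hx).hom

theorem gm_smul (M : Mod R) (x : T) (V : Opens T) (hx : x ∈ V) (r : O R V) (m : Sec M V) :
    gm M x V hx (r • m) = gmO R x V hx r • gm M x V hx m :=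
  PresheafOfModules.germ_smul
    (show PresheafOfModules (R.obj ⋙ forget₂ CommRingCat RingCat) from M.val) x V hx r m

theorem gm_res (M : Mod R) (x : T) {V W : Opens T} (h : W ≤ V) (hx : x ∈ W) (m : Sec M V) :
    gm M x W hx (res M h m) = gm M x V (h hx) m :=
  TopCat.Presheaf.germ_res_apply M.val.presheaf (homOfLE h) x hx m

theorem gmO_resO (x : T) {V W : Opens T} (h : W ≤ V) (hx : x ∈ W) (r : O R V) :
    gmO R x W hx (resO h r) = gmO R x V (h hx) r :=
  TopCat.Presheaf.germ_res_apply R.obj (homOfLE h) x hx r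

theorem exists_gm (M : Mod R) (x : T) (t : St M x) :
    ∃ (V : Opens T) (hx : x ∈ V) (m : Sec M V), gm M x V hx m = t := by
  obtain ⟨V, hV, s, h⟩ := TopCat.Presheaf.exists_germ_eq M.val.presheaf t
  exact ⟨V, hV, s, h⟩

theorem exists_gmO (x : T) (t : StO R x) :
    ∃ (V : Opens T) (hx : x ∈ V) (r : O R V), gmO R x V hx r = t := by
  obtain ⟨V, hV, s, h⟩ := TopCat.Presheaf.exists_germ_eq R.obj t
  exact ⟨V, hV, s, h⟩

/-- Two sections over an open set with the same germ agree nearby. -/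
theorem exists_res_eq (M : Mod R) {x : T} {V : Opens T} (hx : x ∈ V) {s t : Sec M V}
    (h : gm M x V hx s = gm M x V hx t) :
    ∃ (W : Opens T) (_ : x ∈ W) (hW : W ≤ V), res M hW s = res M hW t := by
  obtain ⟨W, hxW, i, j, hij⟩ := TopCat.Presheaf.germ_eq M.val.presheaf x hx hx s t h
  exact ⟨W, hxW, i.le, hij⟩

theorem exists_res_eq_zero (M : Mod R) {x : T} {V : Opens T} (hx : x ∈ V) {s : Sec M V}
    (h : gm M x V hx s = 0) :
    ∃ (W : Opens T) (_ : x ∈ W) (hW : W ≤ V), res M hW s = 0 := by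
  obtain ⟨W, hxW, hW, e⟩ := exists_res_eq M hx (s := s) (t := 0) (by rw [h, map_zero])
  exact ⟨W, hxW, hW, e.trans (map_zero _)⟩

theorem exists_resO_eq {x : T} {V : Opens T} (hx : x ∈ V) {s t : O R V}
    (h : gmO R x V hx s = gmO R x V hx t) :
    ∃ (W : Opens T) (_ : x ∈ W) (hW : W ≤ V), resO hW s = resO hW t := by
  obtain ⟨W, hxW, i, j, hij⟩ := TopCat.Presheaf.germ_eq R.obj x hx hx s t h
  exact ⟨W, hxW, i.le, hij⟩

/-- Sections are determined by their germs. -/
theorem eq_of_gm (M : Mod R) {V : Opens T} {s t : Sec M V}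
    (h : ∀ (x : T) (hx : x ∈ V), gm M x V hx s = gm M x V hx t) : s = t :=
  eq_of_forall_nhds M s t fun x hx => exists_res_eq M hx (h x hx)

/-- Every pair (scalar, element) of the stalks comes from a common neighbourhood. -/
theorem exists_common (M : Mod R) (x : T) (r : StO R x) (s : St M x) :
    ∃ (V : Opens T) (hx : x ∈ V) (r' : O R V) (s' : Sec M V),
      gmO R x V hx r' = r ∧ gm M x V hx s' = s := by
  obtain ⟨U, hU, m, rfl⟩ := exists_gm M x s
  obtain ⟨V, hV, r, rfl⟩ := exists_gmO x r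
  exact ⟨U ⊓ V, ⟨hU, hV⟩, resO inf_le_right r, res M inf_le_left m, gmO_resO x _ _ r,
    gm_res M x _ _ m⟩

/-- A finite family of elements of the stalk comes from a common neighbourhood. -/
theorem exists_gm_fin (M : Mod R) (x : T) {n : ℕ} (t : Fin n → St M x) :
    ∃ (V : Opens T) (hx : x ∈ V) (m : Fin n → Sec M V), ∀ i, gm M x V hx (m i) = t i := by
  choose V hV m hm using fun i => exists_gm M x (t i)
  refine ⟨⟨⋂ i, (V i : Set T), isOpen_iInter_of_finite fun i => (V i).isOpen⟩,
    Set.mem_iInter.2 hV, fun i => res M (fun y hy => Set.mem_iInter.1 hy i) (m i), fun i => ?_⟩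
  rw [gm_res, hm]

theorem exists_gmO_fin (x : T) {n : ℕ} (t : Fin n → StO R x) :
    ∃ (V : Opens T) (hx : x ∈ V) (m : Fin n → O R V), ∀ i, gmO R x V hx (m i) = t i := by
  choose V hV m hm using fun i => exists_gmO x (t i)
  refine ⟨⟨⋂ i, (V i : Set T), isOpen_iInter_of_finite fun i => (V i).isOpen⟩,
    Set.mem_iInter.2 hV, fun i => resO (fun y hy => Set.mem_iInter.1 hy i) (m i), fun i => ?_⟩
  rw [gmO_resO, hm]

section Desc

/-- Additive maps out of the stalk from a compatible family of maps on sections. -/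
def descAdd (M : Mod R) (x : T) (A : Type) [AddCommGroup A]
    (φ : ∀ V : Opens T, x ∈ V → (Sec M V →+ A))
    (hφ : ∀ (V W : Opens T) (h : W ≤ V) (hx : x ∈ W) (s : Sec M V),
      φ W hx (res M h s) = φ V (h hx) s) : St M x →+ A :=
  (Limits.colimit.desc ((OpenNhds.inclusion x).op ⋙ M.val.presheaf)
    (Limits.Cocone.mk (AddCommGrpCat.of A)
      { app := fun U => AddCommGrpCat.ofHom (φ U.unop.1 U.unop.2)
        naturality := fun U V i => by
          ext s
          exact hφ _ _ i.unop.le _ s })).hom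

theorem descAdd_gm (M : Mod R) (x : T) (A : Type) [AddCommGroup A]
    (φ : ∀ V : Opens T, x ∈ V → (Sec M V →+ A))
    (hφ : ∀ (V W : Opens T) (h : W ≤ V) (hx : x ∈ W) (s : Sec M V),
      φ W hx (res M h s) = φ V (h hx) s) (V : Opens T) (hx : x ∈ V) (s : Sec M V) :
    descAdd M x A φ hφ (gm M x V hx s) = φ V hx s := by
  have h := Limits.colimit.ι_desc (F := (OpenNhds.inclusion x).op ⋙ M.val.presheaf)
    (Limits.Cocone.mk (AddCommGrpCat.of A)
      { app := fun U => AddCommGrpCat.ofHom (φ U.unop.1 U.unop.2)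
        naturality := fun U V i => by
          ext s
          exact hφ _ _ i.unop.le _ s }) (op ⟨V, hx⟩)
  exact ConcreteCategory.congr_hom h s

theorem addHom_ext {M : Mod R} {x : T} {B : Type*} [AddCommGroup B] {f g : St M x →+ B}
    (h : ∀ (V : Opens T) (hx : x ∈ V) (s : Sec M V), f (gm M x V hx s) = g (gm M x V hx s)) :
    f = g := by
  ext t
  obtain ⟨V, hV, s, rfl⟩ := exists_gm M x t
  exact h V hV s

/-- Linear maps out of the stalk. -/
def desc (M : Mod R) (x : T) (Q : Type) [AddCommGroup Q] [Module (StO R x) Q]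
    (φ : ∀ V : Opens T, x ∈ V → (Sec M V →+ Q))
    (hφ : ∀ (V W : Opens T) (h : W ≤ V) (hx : x ∈ W) (s : Sec M V),
      φ W hx (res M h s) = φ V (h hx) s)
    (hφ' : ∀ (V : Opens T) (hx : x ∈ V) (r : O R V) (s : Sec M V),
      φ V hx (r • s) = gmO R x V hx r • φ V hx s) : St M x →ₗ[StO R x] Q where
  toFun := descAdd M x Q φ hφ
  map_add' := map_add _
  map_smul' r s := by
    obtain ⟨U, hU, r, s, rfl, rfl⟩ := exists_common M x r s
    rw [← gm_smul, descAdd_gm, descAdd_gm]
    exact hφ' U hU r s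

theorem desc_gm (M : Mod R) (x : T) (Q : Type) [AddCommGroup Q] [Module (StO R x) Q]
    (φ : ∀ V : Opens T, x ∈ V → (Sec M V →+ Q))
    (hφ : ∀ (V W : Opens T) (h : W ≤ V) (hx : x ∈ W) (s : Sec M V),
      φ W hx (res M h s) = φ V (h hx) s)
    (hφ' : ∀ (V : Opens T) (hx : x ∈ V) (r : O R V) (s : Sec M V),
      φ V hx (r • s) = gmO R x V hx r • φ V hx s)
    (V : Opens T) (hx : x ∈ V) (s : Sec M V) :
    desc M x Q φ hφ hφ' (gm M x V hx s) = φ V hx s :=
  descAdd_gm M x Q φ hφ V hx s

end Desc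

section StMap

/-- The map on stalks of a morphism. -/
def stMap {M N : Mod R} (φ : M ⟶ N) (x : T) : St M x →ₗ[StO R x] St N x :=
  desc M x (St N x) (fun V hx => (gm N x V hx).comp (app φ V).toAddMonoidHom)
    (fun V W h hx s => by
      change gm N x W hx (app φ W (res M h s)) = gm N x V (h hx) (app φ V s)
      rw [app_res, gm_res])
    (fun V hx r s => by
      change gm N x V hx (app φ V (r • s)) = gmO R x V hx r • gm N x V hx (app φ V s)
      rw [map_smul, gm_smul])

theorem stMap_gm {M N : Mod R} (φ : M ⟶ N) (x : T) (V : Opens T) (hx : x ∈ V) (s : Sec M V) :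
    stMap φ x (gm M x V hx s) = gm N x V hx (app φ V s) :=
  desc_gm M x (St N x) _ _ _ V hx s

theorem linHom_ext {M : Mod R} {x : T} {Q : Type*} [AddCommGroup Q] [Module (StO R x) Q]
    {f g : St M x →ₗ[StO R x] Q}
    (h : ∀ (V : Opens T) (hx : x ∈ V) (s : Sec M V), f (gm M x V hx s) = g (gm M x V hx s)) :
    f = g := by
  ext t
  obtain ⟨V, hV, s, rfl⟩ := exists_gm M x t
  exact h V hV s

theorem stMap_id (M : Mod R) (x : T) : stMap (𝟙 M) x = LinearMap.id :=
  linHom_ext fun V hx s => by rw [stMap_gm]; rfl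

theorem stMap_comp {M N P : Mod R} (φ : M ⟶ N) (ψ : N ⟶ P) (x : T) :
    stMap (φ ≫ ψ) x = (stMap ψ x).comp (stMap φ x) :=
  linHom_ext fun V hx s => by rw [stMap_gm, LinearMap.comp_apply, stMap_gm, stMap_gm]; rfl

theorem stMap_comp_apply {M N P : Mod R} (φ : M ⟶ N) (ψ : N ⟶ P) (x : T) (t : St M x) :
    stMap (φ ≫ ψ) x t = stMap ψ x (stMap φ x t) := by
  rw [stMap_comp]; rfl

theorem stMap_add {M N : Mod R} (φ ψ : M ⟶ N) (x : T) :
    stMap (φ + ψ) x = stMap φ x + stMap ψ x :=
  linHom_ext fun V hx s => by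
    rw [LinearMap.add_apply, stMap_gm, stMap_gm, stMap_gm, ← map_add]
    rfl

theorem stMap_zero (M N : Mod R) (x : T) : stMap (0 : M ⟶ N) x = 0 :=
  linHom_ext fun V hx s => by
    rw [stMap_gm, LinearMap.zero_apply]
    exact (gm N x V hx).map_zero

/-- An isomorphism of modules induces isomorphisms of stalks. -/
def stIso {M N : Mod R} (e : M ≅ N) (x : T) : St M x ≃ₗ[StO R x] St N x :=
  LinearEquiv.ofLinearMap (stMap e.hom x) (stMap e.inv x)
    (by rw [← stMap_comp, e.inv_hom_id, stMap_id])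
    (by rw [← stMap_comp, e.hom_inv_id, stMap_id])

theorem stMap_bijective_of_isIso {M N : Mod R} (φ : M ⟶ N) [IsIso φ] (x : T) :
    Function.Bijective (stMap φ x) :=
  (stIso (asIso φ) x).bijective

/-- A morphism which is zero on stalks is zero. -/
theorem hom_ext_stalk {M N : Mod R} {φ ψ : M ⟶ N} (h : ∀ x, stMap φ x = stMap ψ x) : φ = ψ :=
  hom_ext fun V m => eq_of_gm N fun x hx => by rw [← stMap_gm, ← stMap_gm, h x]

/-- `φ` is injective on sections iff it is injective on stalks. -/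
theorem app_injective_iff {M N : Mod R} (φ : M ⟶ N) :
    (∀ V, Function.Injective (app φ V)) ↔ ∀ x, Function.Injective (stMap φ x) := by
  constructor
  · intro h x
    rw [injective_iff_map_eq_zero]
    intro t ht
    obtain ⟨V, hV, s, rfl⟩ := exists_gm M x t
    rw [stMap_gm] at ht
    obtain ⟨W, hxW, hW, e⟩ := exists_res_eq_zero N hV ht
    rw [← app_res] at e
    have : res M hW s = 0 := h W (e.trans (map_zero _).symm)
    rw [← gm_res M x hW hxW, this, map_zero]
  · intro h V s t hst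
    exact eq_of_gm M fun x hx => h x (by rw [stMap_gm, stMap_gm, hst])

/-- Isomorphism criterion on sections. -/
theorem isIso_of_bijective {M N : Mod R} (φ : M ⟶ N) (h : ∀ V, Function.Bijective (app φ V)) :
    IsIso φ := by
  choose g hg using fun V => (h V).2
  have hg' : ∀ V s, g V (app φ V s) = s := fun V s => (h V).1 (hg V _)
  refine ⟨⟨homMk (fun V => AddMonoidHom.mk' (g V) fun a b => (h V).1 ?_) (fun V r m => (h V).1 ?_)
    (fun V W hW m => (h W).1 ?_), ?_, ?_⟩⟩
  · rw [map_add, hg, hg, hg]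
  · change app φ V (g V (r • m)) = app φ V (r • g V m)
    rw [map_smul, hg, hg]
  · change app φ W (g W (res N hW m)) = app φ W (res M hW (g V m))
    rw [hg, app_res, hg]
  · exact hom_ext fun V m => hg' V m
  · exact hom_ext fun V m => hg V m

/-- Isomorphism criterion on stalks. -/
theorem isIso_iff_stMap {M N : Mod R} (φ : M ⟶ N) :
    IsIso φ ↔ ∀ x, Function.Bijective (stMap φ x) := by
  refine ⟨fun _ x => stMap_bijective_of_isIso φ x, fun h => isIso_of_bijective φ fun V => ?_⟩
  have hinj := (app_injective_iff φ).2 fun x => (h x).1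
  refine ⟨hinj V, fun n => ?_⟩
  have key : ∀ x : V, ∃ (W : Opens T) (_ : x.1 ∈ W) (hW : W ≤ V) (m : Sec M W),
      app φ W m = res N hW n := by
    intro x
    obtain ⟨t, ht⟩ := (h x.1).2 (gm N x.1 V x.2 n)
    obtain ⟨U, hU, m, rfl⟩ := exists_gm M x.1 t
    rw [stMap_gm, ← gm_res N x.1 (inf_le_left : U ⊓ V ≤ U) ⟨hU, x.2⟩,
      ← gm_res N x.1 (inf_le_right : U ⊓ V ≤ V) ⟨hU, x.2⟩] at ht
    obtain ⟨W, hxW, hW, e⟩ := exists_res_eq N _ ht
    rw [res_res, res_res] at e
    exact ⟨W, hxW, hW.trans inf_le_right, res M (hW.trans inf_le_left) m, by rw [app_res, e]⟩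
  choose W hxW hW m hm using key
  obtain ⟨t, ht⟩ := exists_glue M W V (fun x hx => Opens.mem_iSup.2 ⟨⟨x, hx⟩, hxW ⟨x, hx⟩⟩) hW m
    (fun i j U hi hj => hinj U (by
      rw [app_res, app_res, hm, hm, res_res, res_res]))
  refine ⟨t, eq_of_locally N W V (fun x hx => Opens.mem_iSup.2 ⟨⟨x, hx⟩, hxW ⟨x, hx⟩⟩) hW _ _
    fun i => ?_⟩
  rw [← app_res, ht, hm]

end StMap

end Groth.Agent.Gaga.H986.Stalk
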